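import Cfsg.Agent.SymSylowTwo.Setup
import Cfsg.Agent.AltSylowTwo.UniqueMax
import Cfsg.Agent.Jordan.PrimeCycle

/-!
A primitive group with a perfect normal self-centralizing subgroup containing the products of two out of at
least four disjoint transpositions, leaving at most one point fixed, contains the alternating group.
-/

set_option autoImplicit false
open Equiv
open scoped commutatorElement Pointwise

namespace CfsgLib.SymSylowTwo

variable {β : Type*} [Fintype β] [DecidableEq β]

theorem sign_eq_one_of_invol_four {f : Perm β} (h2 : f * f = 1) (hc : f.support.card = 4) :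
    Perm.sign f = 1 := by
  have hf1 : f ≠ 1 := fun h => by simp [h] at hc
  have hord : orderOf f = 2 := orderOf_eq_prime (by rw [pow_two, h2]) hf1
  have hall : ∀ n ∈ f.cycleType, n = 2 := fun n hn => by
    have h := Multiset.dvd_lcm hn
    rw [Perm.lcm_cycleType, hord] at h
    have := Perm.two_le_of_mem_cycleType hn
    have := Nat.le_of_dvd (by norm_num) h
    omega
  have hrep : f.cycleType = Multiset.replicate (Multiset.card f.cycleType) 2 :=
    Multiset.eq_replicate_card.mpr hall
  have hs := Perm.sum_cycleType f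
  rw [hc, hrep, Multiset.sum_replicate, smul_eq_mul] at hs
  rw [Perm.sign_of_cycleType, Perm.sum_cycleType, hc, show Multiset.card f.cycleType = 2 by omega]
  rfl

theorem not_commute_of_inter_three {f g : Perm β} (hf : f * f = 1) (hcard : (f.support \ g.support).card = 1)
    : f * g ≠ g * f := by
  intro hcomm
  obtain ⟨a, ha⟩ := Finset.card_eq_one.mp hcard
  have ha' : a ∈ f.support \ g.support := ha ▸ Finset.mem_singleton_self a
  rw [Finset.mem_sdiff, Perm.mem_support, Perm.mem_support, not_not] at ha'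
  have hga : g (f a) = f a := by
    rw [← Perm.mul_apply, ← hcomm, Perm.mul_apply, ha'.2]
  have hmem : f a ∈ f.support \ g.support := by
    rw [Finset.mem_sdiff, Perm.mem_support, Perm.mem_support, not_not]
    refine ⟨fun h => ha'.1 ?_, hga⟩
    have h1 : f (f a) = a := by rw [← Perm.mul_apply, hf, Perm.one_apply]
    rw [h1] at h
    exact h.symm
  rw [ha, Finset.mem_singleton] at hmem
  exact ha'.1 hmem

theorem prime_cycle_of_inter_three {f g : Perm β} (hf : f * f = 1) (hg : g * g = 1)
    (hfc : f.support.card = 4) (hgc : g.support.card = 4) (hi : (f.support ∩ g.support).card = 3) :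
    (f * g).IsCycle ∧ ((f * g).support.card = 3 ∨ (f * g).support.card = 5) := by
  have hU : (f * g).support.card ≤ 5 := by
    refine (Finset.card_le_card (Perm.support_mul_le f g)).trans ?_
    have := Finset.card_union_add_card_inter f.support g.support
    rw [Finset.sup_eq_union]
    omega
  have hsd : (f.support \ g.support).card = 1 := by
    have := Finset.card_sdiff_add_card_inter f.support g.support
    omega
  set z := f * g with hz
  have hz2 : z ^ 2 ≠ 1 := by
    intro h
    apply not_commute_of_inter_three hf hsd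
    have h1 : z⁻¹ = z := inv_eq_of_mul_eq_one_right (by rw [← pow_two, h])
    rw [← hz, ← h1, hz, mul_inv_rev, inv_eq_of_mul_eq_one_right hf, inv_eq_of_mul_eq_one_right hg]
  have hsign : Perm.sign z = 1 := by
    rw [hz, map_mul, sign_eq_one_of_invol_four hf hfc, sign_eq_one_of_invol_four hg hgc, one_mul]
  have hsum := Perm.sum_cycleType z
  have hcy : ∀ n ∈ z.cycleType, 2 ≤ n := fun n hn => Perm.two_le_of_mem_cycleType hn
  have hge := Multiset.card_nsmul_le_sum hcy
  rw [Perm.sign_of_cycleType, neg_one_pow_eq_one_iff_even (by decide)] at hsign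
  rw [smul_eq_mul] at hge
  rw [hsum] at hge hsign
  obtain ⟨t, ht⟩ := hsign
  have hk : Multiset.card z.cycleType = 0 ∨ Multiset.card z.cycleType = 1 ∨ Multiset.card z.cycleType = 2 := by
    omega
  rcases hk with hk | hk | hk
  · rw [Multiset.card_eq_zero, Perm.cycleType_eq_zero] at hk
    exact absurd (by rw [hk, one_pow]) hz2
  · refine ⟨Perm.card_cycleType_eq_one.mp hk, ?_⟩
    have := Perm.card_support_ne_one z
    omega
  · exfalso
    apply hz2
    have hall : ∀ n ∈ z.cycleType, n = 2 := by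
      obtain ⟨x, y, hxy⟩ := Multiset.card_eq_two.mp hk
      rw [hxy] at hcy hsum ⊢
      simp only [Multiset.insert_eq_cons, Multiset.mem_cons, Multiset.mem_singleton, forall_eq_or_imp,
        forall_eq, Multiset.sum_cons, Multiset.sum_singleton] at hcy hsum ⊢
      omega
    rw [← orderOf_dvd_iff_pow_eq_one, ← Perm.lcm_cycleType]
    exact Multiset.lcm_dvd.mpr fun n hn => (hall n hn) ▸ dvd_rfl

variable {G : Type*} [Group G] {L : Subgroup G} {φ : G →* Perm β} {m : ℕ} {e : Fin m × Bool ↪ β}

/-- The 4-element supports of involutions induced by `G`. -/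
def Supp4 (φ : G →* Perm β) (Y : Finset β) : Prop :=
  ∃ g : G, (φ g).support = Y ∧ Y.card = 4 ∧ φ g * φ g = 1

theorem Supp4.conj {Y : Finset β} (hY : Supp4 φ Y) (g : G) : Supp4 φ (Y.map (φ g).toEmbedding) := by
  obtain ⟨x, hx, hc, h2⟩ := hY
  refine ⟨g * x * g⁻¹, ?_, by rwa [Finset.card_map], ?_⟩
  · rw [map_mul, map_mul, map_inv, Perm.support_conj, hx]
  · calc φ (g * x * g⁻¹) * φ (g * x * g⁻¹) = φ g * (φ x * φ x) * (φ g)⁻¹ := by
          rw [map_mul, map_mul, map_inv]; group
      _ = 1 := by rw [h2]; group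

theorem supp4_quad (hφe : HasPairs φ e) {i j : Fin m} (h : i ≠ j) : Supp4 φ (quad e i j) := by
  obtain ⟨g, hg⟩ := hφe i j h
  exact ⟨g, by rw [hg, dbl_support h], card_quad h, by rw [hg, dbl_mul_self h]⟩

theorem mem_quad_apply {i j k : Fin m} {b : Bool} : e (k, b) ∈ quad e i j ↔ k = i ∨ k = j := by
  rw [mem_quad]
  constructor
  · rintro ⟨b', h | h⟩
    · exact Or.inl (Prod.ext_iff.mp (e.injective h)).1
    · exact Or.inr (Prod.ext_iff.mp (e.injective h)).1
  · rintro (rfl | rfl)
    · exact ⟨b, Or.inl rfl⟩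
    · exact ⟨b, Or.inr rfl⟩

theorem trivial_class (hprim : MulAction.IsPreprimitive ↥φ.range β) (R : β → β → Prop)
    (hR : Equivalence R) (hinv : ∀ (g : G) u v, R u v → R (φ g u) (φ g v)) :
    (∀ u v, R u v → u = v) ∨ ∀ u v, R u v := by
  by_contra hcon
  push Not at hcon
  obtain ⟨⟨u, v, huv, hne⟩, ⟨p, q, hpq⟩⟩ := hcon
  have hblock : MulAction.IsBlock ↥φ.range {y | R u y} := by
    rw [MulAction.isBlock_iff_smul_eq_of_nonempty]
    rintro ⟨_, g, rfl⟩ ⟨w, hw1, hw2⟩
    obtain ⟨y, hy, rfl⟩ := hw1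
    have huw : R u (φ g y) := hw2
    have hgu : R (φ g u) u := hR.trans (hinv g _ _ hy) (hR.symm huw)
    ext z
    constructor
    · rintro ⟨t, ht, rfl⟩
      exact hR.trans (hR.symm hgu) (hinv g _ _ ht)
    · intro hz
      refine ⟨φ g⁻¹ z, ?_, ?_⟩
      · have h1 := hinv g⁻¹ _ _ (hR.trans hgu hz)
        rwa [← Perm.mul_apply, ← map_mul, inv_mul_cancel, map_one, Perm.one_apply] at h1
      · show φ g (φ g⁻¹ z) = z
        rw [← Perm.mul_apply, ← map_mul, mul_inv_cancel, map_one, Perm.one_apply]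
  rcases hprim.isTrivialBlock_of_isBlock hblock with h | h
  · exact hne (h (hR.refl u) huv)
  · have hp : R u p := (h.ge (Set.mem_univ p) :)
    have hq : R u q := (h.ge (Set.mem_univ q) :)
    exact hpq (hR.trans (hR.symm hp) hq)

theorem Core.no_commuting_normal (hL : Core L) (hφ : Function.Injective φ)
    (hprim : MulAction.IsPreprimitive ↥φ.range β) {z : G} (hz : z ≠ 1) (hzc : ∀ l ∈ L, z * l = l * z) : False := by
  let N : Subgroup G := L ⊓ Subgroup.centralizer (L : Set G)
  have hLn := hL.normal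
  have hN : N.Normal := inferInstance
  have hzN : z ∈ N := ⟨hL.cent z hzc, fun l hl => (hzc l hl).symm⟩
  have key := trivial_class hprim (fun u v => ∃ n ∈ N, φ n u = v)
    ⟨fun u => ⟨1, N.one_mem, by simp⟩,
     fun {u v} ⟨n, hn, h⟩ => ⟨n⁻¹, N.inv_mem hn, by
       rw [← h, ← Perm.mul_apply, ← map_mul, inv_mul_cancel, map_one, Perm.one_apply]⟩,
     fun {u v w} ⟨n, hn, h⟩ ⟨k, hk, h'⟩ => ⟨k * n, N.mul_mem hk hn, by
       rw [map_mul, Perm.mul_apply, h, h']⟩⟩
    (fun g u v ⟨n, hn, h⟩ => ⟨g * n * g⁻¹, hN.conj_mem n hn g, by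
      rw [map_mul, map_mul, Perm.mul_apply, Perm.mul_apply, ← Perm.mul_apply (φ g⁻¹), ← map_mul,
        inv_mul_cancel, map_one, Perm.one_apply, h]⟩)
  rcases key with h | h
  · exact hz (hφ (Perm.ext fun y => by rw [map_one, Perm.one_apply]; exact (h y _ ⟨z, hzN, rfl⟩).symm))
  · refine hL.ne_commutative fun a ha b hb => ?_
    have hreg : ∀ l ∈ L, l ∈ N := by
      intro l hl
      rcases isEmpty_or_nonempty β with hβ | ⟨⟨y⟩⟩
      · have : l = 1 := hφ (Perm.ext fun y => isEmptyElim y)
        rw [this]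
        exact N.one_mem
      obtain ⟨n, hn, hny⟩ := h y (φ l y)
      have hk : n⁻¹ * l ∈ L := L.mul_mem (L.inv_mem hn.1) hl
      have hfix : φ (n⁻¹ * l) y = y := by
        rw [map_mul, Perm.mul_apply, ← hny, ← Perm.mul_apply, ← map_mul, inv_mul_cancel, map_one, Perm.one_apply]
      have : n⁻¹ * l = 1 := hφ (Perm.ext fun w => by
        obtain ⟨k, hk', rfl⟩ := h y w
        rw [← Perm.mul_apply, ← map_mul, hk'.2 _ hk, map_mul, Perm.mul_apply, hfix, map_one, Perm.one_apply])
      rw [show l = n by rw [← mul_one n, ← this]; group]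
      exact hn
    exact ((hreg a ha).2 b hb).symm

theorem Core.alt_le (hL : Core L) (hφ : Function.Injective φ) (hφe : HasPairs φ e) (hm : 4 ≤ m)
    (hβ : Fintype.card β ≤ 2 * m + 1) (hprim : MulAction.IsPreprimitive ↥φ.range β) :
    alternatingGroup β ≤ φ.range := by
  have h8 : 8 ≤ Fintype.card β := by
    have := Fintype.card_le_of_embedding e
    simp at this
    omega
  by_cases hodd : ∃ X Y, Supp4 φ X ∧ Supp4 φ Y ∧ ¬ Even (X ∩ Y).card
  · obtain ⟨X, Y, ⟨x, rfl, hxc, hx2⟩, ⟨y, rfl, hyc, hy2⟩, hpar⟩ := hodd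
    have hle := Finset.card_le_card (Finset.inter_subset_left : (φ x).support ∩ (φ y).support ⊆ (φ x).support)
    have h13 : ((φ x).support ∩ (φ y).support).card = 1 ∨ ((φ x).support ∩ (φ y).support).card = 3 := by
      rw [Nat.not_even_iff_odd] at hpar
      obtain ⟨k, hk⟩ := hpar
      omega
    have hmem : ∀ g, φ g ∈ φ.range := fun g => ⟨g, rfl⟩
    rcases h13 with h1 | h3
    · obtain ⟨w, hw⟩ := Finset.card_eq_one.mp h1
      have hw' : w ∈ (φ x).support ∩ (φ y).support := hw ▸ Finset.mem_singleton_self w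
      rw [Finset.mem_inter, Perm.mem_support, Perm.mem_support] at hw'
      refine Perm.alternatingGroup_le_of_isPreprimitive_of_isThreeCycle_mem hprim
        (AltSylowTwo.isThreeCycle_commutator hw'.1 hw'.2 fun a h1 h2 => ?_)
        (mul_mem (mul_mem (mul_mem (hmem y) (hmem x)) (inv_mem (hmem y))) (inv_mem (hmem x)))
      have : a ∈ (φ x).support ∩ (φ y).support :=
        Finset.mem_inter.mpr ⟨Perm.mem_support.mpr h1, Perm.mem_support.mpr h2⟩
      rwa [hw, Finset.mem_singleton] at this
    · obtain ⟨hcyc, h | h⟩ := prime_cycle_of_inter_three hx2 hy2 hxc hyc h3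
      · exact Jordan.alternatingGroup_le_of_prime_cycle _ hprim Nat.prime_three (by omega) hcyc h
          (mul_mem (hmem x) (hmem y))
      · exact Jordan.alternatingGroup_le_of_prime_cycle _ hprim (by norm_num : Nat.Prime 5) (by omega) hcyc h
          (mul_mem (hmem x) (hmem y))
  exfalso
  push Not at hodd
  -- `Y` meets exactly one point of every pair, or is a union of pairs
  have hshape : ∀ Y, Supp4 φ Y → (∀ y ∈ Y, ∃ k b, e (k, b) = y) ∧
      ((∀ k, e (k, true) ∈ Y ↔ e (k, false) ∈ Y) ∨
        m = 4 ∧ ∀ k, e (k, true) ∈ Y ↔ e (k, false) ∉ Y) := by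
    intro Y hY
    have hc4 : Y.card = 4 := hY.choose_spec.2.1
    have hpar : ∀ i j, i ≠ j →
        ((e (i, true) ∈ Y ↔ e (i, false) ∈ Y) ↔ (e (j, true) ∈ Y ↔ e (j, false) ∈ Y)) := by
      intro i j h
      have hev := hodd _ _ (supp4_quad hφe h) hY
      have hq : (quad e i j ∩ Y) = ((({i, j} : Finset (Fin m)) ×ˢ (Finset.univ : Finset Bool)).filter
          fun p => e p ∈ Y).map e := by
        rw [quad]
        ext y
        simp only [Finset.mem_inter, Finset.mem_map, Finset.mem_filter]
        constructor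
        · rintro ⟨⟨p, hp, rfl⟩, hy⟩; exact ⟨p, ⟨hp, hy⟩, rfl⟩
        · rintro ⟨p, ⟨hp, hy⟩, rfl⟩; exact ⟨⟨p, hp, rfl⟩, hy⟩
      rw [hq, Finset.card_map, Finset.card_filter, Finset.sum_product, Finset.sum_pair h,
        Fintype.sum_bool, Fintype.sum_bool] at hev
      by_cases a1 : e (i, true) ∈ Y <;> by_cases a2 : e (i, false) ∈ Y <;>
        by_cases a3 : e (j, true) ∈ Y <;> by_cases a4 : e (j, false) ∈ Y <;>
          simp_all (config := { decide := true })
    let S : Finset (Fin m × Bool) := Finset.univ.filter fun p => e p ∈ Y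
    have hSY : S.map e ⊆ Y := fun y hy => by
      obtain ⟨p, hp, rfl⟩ := Finset.mem_map.mp hy
      exact (Finset.mem_filter.mp hp).2
    have hSsum : S.card = ∑ k : Fin m, ((if e (k, true) ∈ Y then 1 else 0) + (if e (k, false) ∈ Y then 1 else 0)) := by
      rw [Finset.card_filter, Fintype.sum_prod_type]
      simp only [Fintype.sum_bool]
    let i0 : Fin m := ⟨0, by omega⟩
    by_cases hsame : e (i0, true) ∈ Y ↔ e (i0, false) ∈ Y
    · have hall : ∀ k, e (k, true) ∈ Y ↔ e (k, false) ∈ Y := fun k => by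
        by_cases hk : i0 = k
        · exact hk ▸ hsame
        · exact (hpar i0 k hk).mp hsame
      refine ⟨fun y hy => ?_, Or.inl hall⟩
      by_contra hno
      push Not at hno
      have hyS : y ∉ S.map e := fun h => by
        obtain ⟨⟨k, b⟩, -, h⟩ := Finset.mem_map.mp h
        exact hno k b h
      have hYS : Y ⊆ S.map e ∪ (Finset.univ \ Finset.univ.map e) := fun w hw => by
        by_cases hw' : ∃ p, e p = w
        · obtain ⟨p, rfl⟩ := hw'
          exact Finset.mem_union_left _ (Finset.mem_map_of_mem _ (Finset.mem_filter.mpr ⟨Finset.mem_univ _, hw⟩))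
        · refine Finset.mem_union_right _ (Finset.mem_sdiff.mpr ⟨Finset.mem_univ _, fun h => hw' ?_⟩)
          obtain ⟨p, -, hp⟩ := Finset.mem_map.mp h
          exact ⟨p, hp⟩
      have hout : (Finset.univ \ Finset.univ.map e).card ≤ 1 := by
        rw [Finset.card_sdiff_of_subset (Finset.subset_univ _), Finset.card_map]
        simp
        omega
      have h1 := (Finset.card_le_card hYS).trans (Finset.card_union_le _ _)
      have h2 := Finset.card_lt_card (Finset.ssubset_iff_of_subset hSY |>.mpr ⟨y, hy, hyS⟩)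
      rw [Finset.card_map] at h1 h2
      have hSeven : Even S.card := by
        rw [hSsum]
        apply Finset.even_sum
        intro k _
        by_cases hk : e (k, false) ∈ Y
        · simp [hk, (hall k).mpr hk]
        · simp [hk, mt (hall k).mp hk]
      obtain ⟨t, ht⟩ := hSeven
      omega
    · have hall : ∀ k, e (k, true) ∈ Y ↔ e (k, false) ∉ Y := fun k => by
        have hk' : ¬ (e (k, true) ∈ Y ↔ e (k, false) ∈ Y) := by
          by_cases hk : i0 = k
          · exact hk ▸ hsame
          · exact mt (hpar i0 k hk).mpr hsame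
        tauto
      have hS : S.card = m := by
        rw [hSsum, Finset.sum_congr rfl (g := fun _ => 1)]
        · simp
        · intro k _
          by_cases hk : e (k, false) ∈ Y <;> simp [hk, hall k]
      have hle := Finset.card_le_card hSY
      rw [Finset.card_map, hS, hc4] at hle
      have hm4 : m = 4 := by omega
      refine ⟨fun y hy => ?_, Or.inr ⟨hm4, hall⟩⟩
      have heq : S.map e = Y := Finset.eq_of_subset_of_card_le hSY (by rw [Finset.card_map, hS, hc4, hm4])
      rw [← heq] at hy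
      obtain ⟨⟨k, b⟩, -, hp⟩ := Finset.mem_map.mp hy
      exact ⟨k, b, hp⟩
  have i0 : Fin m := ⟨0, by omega⟩
  obtain ⟨i1, hi1, -⟩ := exists_third (by omega) i0 i0
  -- every point lies in a pair
  have hsurj : ∀ y, ∃ k b, e (k, b) = y := by
    intro y
    haveI := hprim.toIsPretransitive
    obtain ⟨⟨_, g, rfl⟩, hg⟩ := MulAction.exists_smul_eq ↥φ.range (e (i0, false)) y
    refine (hshape _ ((supp4_quad hφe hi1.symm).conj g)).1 y (Finset.mem_map.mpr ⟨e (i0, false), ?_, hg⟩)
    rw [mem_quad_apply]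
    exact Or.inl rfl
  -- the supports separate points
  have hmap : ∀ (g : G) (Y : Finset β) (u : β), φ g u ∈ Y ↔ u ∈ Y.map (φ g⁻¹).toEmbedding := fun g Y u => by
    rw [Finset.mem_map]
    constructor
    · exact fun h => ⟨φ g u, h, by
        show φ g⁻¹ (φ g u) = u
        rw [← Perm.mul_apply, ← map_mul, inv_mul_cancel, map_one, Perm.one_apply]⟩
    · rintro ⟨w, hw, rfl⟩
      show φ g (φ g⁻¹ w) ∈ Y
      rwa [← Perm.mul_apply, ← map_mul, mul_inv_cancel, map_one, Perm.one_apply]
  have hsep : ∀ u v, (∀ Y, Supp4 φ Y → (u ∈ Y ↔ v ∈ Y)) → u = v := by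
    refine (trivial_class hprim (fun u v => ∀ Y, Supp4 φ Y → (u ∈ Y ↔ v ∈ Y))
      ⟨fun u Y _ => Iff.rfl, fun h Y hY => (h Y hY).symm, fun h h' Y hY => (h Y hY).trans (h' Y hY)⟩
      (fun g u v h Y hY => by rw [hmap, hmap]; exact h _ (hY.conj g⁻¹))).resolve_right fun hall => ?_
    obtain ⟨i2, h20, h21⟩ := exists_third (by omega) i0 i1
    have := hall (e (i0, false)) (e (i2, false)) _ (supp4_quad hφe hi1.symm)
    rw [mem_quad_apply, mem_quad_apply] at this
    tauto
  -- there is a transversal, so `m = 4`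
  have hm4 : m = 4 := by
    by_contra hne
    have := hsep (e (i0, true)) (e (i0, false)) fun Y hY => by
      rcases (hshape Y hY).2 with h | h
      · exact h i0
      · exact absurd h.1 hne
    simp at this
  subst hm4
  let E : Subgroup G :=
    { carrier := {g | ∀ Y, Supp4 φ Y → ∃ b : Prop, ∀ y, φ g y ∈ Y ↔ (y ∈ Y ↔ b)}
      one_mem' := fun Y _ => ⟨True, fun y => by simp⟩
      mul_mem' := fun {g h} hg hh Y hY => by
        obtain ⟨b, hb⟩ := hg Y hY
        obtain ⟨c, hc⟩ := hh Y hY
        exact ⟨(c ↔ b), fun y => by rw [map_mul, Perm.mul_apply, hb, hc]; tauto⟩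
      inv_mem' := fun {g} hg Y hY => by
        obtain ⟨b, hb⟩ := hg Y hY
        refine ⟨b, fun y => ?_⟩
        have := hb (φ g⁻¹ y)
        rw [← Perm.mul_apply, ← map_mul, mul_inv_cancel, map_one, Perm.one_apply] at this
        tauto }
  have hEn : E.Normal := ⟨fun k hk g Y hY => by
    obtain ⟨b, hb⟩ := hk _ (hY.conj g⁻¹)
    refine ⟨b, fun y => ?_⟩
    have hy : y ∈ Y ↔ φ g⁻¹ y ∈ Y.map (φ g⁻¹).toEmbedding :=
      (Finset.mem_map' (φ g⁻¹).toEmbedding).symm
    rw [map_mul, map_mul, Perm.mul_apply, Perm.mul_apply, hmap, hb, ← hy]⟩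
  obtain ⟨x, hx⟩ := hφe 0 1 (by decide)
  obtain ⟨y, hy⟩ := hφe 2 3 (by decide)
  have hflip : ∀ (k : Fin 4) (b : Bool), φ (x * y) (e (k, b)) = e (k, !b) := by
    intro k b
    rw [map_mul, Perm.mul_apply, hx, hy]
    have hz : ∀ (i j k : Fin 4) (c : Bool), k ≠ i → k ≠ j → dbl e i j (e (k, c)) = e (k, c) :=
      fun i j k c h1 h2 => dbl_fix (fun b h => h1 (Prod.ext_iff.mp (e.injective h)).1)
        fun b h => h2 (Prod.ext_iff.mp (e.injective h)).1
    fin_cases k
    · rw [hz 2 3 _ b (by decide) (by decide)]; exact (dbl_flip (by decide) b).1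
    · rw [hz 2 3 _ b (by decide) (by decide)]; exact (dbl_flip (by decide) b).2
    · show dbl e 0 1 (dbl e 2 3 (e ((2 : Fin 4), b))) = e ((2 : Fin 4), !b)
      rw [show dbl e 2 3 (e ((2 : Fin 4), b)) = e ((2 : Fin 4), !b) from (dbl_flip (by decide) b).1]
      exact hz 0 1 2 _ (by decide) (by decide)
    · show dbl e 0 1 (dbl e 2 3 (e ((3 : Fin 4), b))) = e ((3 : Fin 4), !b)
      rw [show dbl e 2 3 (e ((3 : Fin 4), b)) = e ((3 : Fin 4), !b) from (dbl_flip (by decide) b).2]
      exact hz 0 1 3 _ (by decide) (by decide)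
  have hxyE : x * y ∈ E := by
    intro Y hY
    rcases (hshape Y hY).2 with h | ⟨-, h⟩
    · refine ⟨True, fun w => ?_⟩
      obtain ⟨k, b, rfl⟩ := hsurj w
      rw [hflip, iff_true]
      cases b
      · exact h k
      · exact (h k).symm
    · refine ⟨False, fun w => ?_⟩
      obtain ⟨k, b, rfl⟩ := hsurj w
      rw [hflip, iff_false]
      have := h k
      cases b <;> simp only [Bool.not_true, Bool.not_false] <;> tauto
  have hxy : x * y ≠ 1 := fun h => by
    have := hflip 0 false
    rw [h, map_one, Perm.one_apply] at this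
    simp at this
  rcases hL.dichotomy E hEn with hLE | hc
  · apply hL.ne_bot
    rw [Subgroup.eq_bot_iff_forall]
    intro l hl
    refine hφ (Perm.ext fun w => ?_)
    rw [map_one, Perm.one_apply]
    refine hsep _ _ fun Y hY => ?_
    let K : Subgroup G :=
      { carrier := {g | ∀ w, φ g w ∈ Y ↔ w ∈ Y}
        one_mem' := fun w => by simp
        mul_mem' := fun {g h} hg hh w => by rw [map_mul, Perm.mul_apply, hg, hh]
        inv_mem' := fun {g} hg w => by
          have := hg (φ g⁻¹ w)
          rw [← Perm.mul_apply, ← map_mul, mul_inv_cancel, map_one, Perm.one_apply] at this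
          exact this.symm }
    have hK : ⁅L, L⁆ ≤ K := by
      rw [Subgroup.commutator_le]
      intro a ha c hc w
      obtain ⟨p, hp⟩ := hLE ha Y hY
      obtain ⟨q, hq⟩ := hLE hc Y hY
      have hpi : ∀ v, φ a⁻¹ v ∈ Y ↔ (v ∈ Y ↔ p) := fun v => by
        have := hp (φ a⁻¹ v)
        rw [← Perm.mul_apply, ← map_mul, mul_inv_cancel, map_one, Perm.one_apply] at this
        tauto
      have hqi : ∀ v, φ c⁻¹ v ∈ Y ↔ (v ∈ Y ↔ q) := fun v => by
        have := hq (φ c⁻¹ v)
        rw [← Perm.mul_apply, ← map_mul, mul_inv_cancel, map_one, Perm.one_apply] at this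
        tauto
      rw [commutatorElement_def, map_mul, map_mul, map_mul, Perm.mul_apply, Perm.mul_apply, Perm.mul_apply,
        hp, hq, hpi, hqi]
      tauto
    rw [hL.perfect] at hK
    exact hK hl w
  · exact hL.no_commuting_normal hφ hprim hxy (hc _ hxyE)

end CfsgLib.SymSylowTwo
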