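import Cfsg.Agent.SymSylowTwo.Orbit
import Cfsg.Agent.SymSylowTwo.Alt
import Cfsg.Prelude.Def_Local

/-!
A subgroup of a symmetric group with quasisimple generalized Fitting subgroup containing a Sylow 2-subgroup
of the alternating group.
-/

set_option autoImplicit false
open Equiv
open scoped commutatorElement Pointwise

namespace CfsgLib.SymSylowTwo

theorem core_of_quasisimple {G : Type*} [Group G] [Finite G]
    (h : Cfsg.IsQuasisimple ↥(Cfsg.generalizedFittingSubgroup G)) : Core (Cfsg.generalizedFittingSubgroup G) := by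
  set L := Cfsg.generalizedFittingSubgroup G
  haveI := h.1
  refine ⟨CfsgLib.Components.generalizedFittingSubgroup_normal, Subgroup.commutator_eq_self, ?_, ?_, ?_⟩
  · intro hb
    haveI := CfsgLib.Components.quasisimple_nontrivial h
    haveI : Subsingleton ↥L := hb ▸ inferInstance
    exact false_of_nontrivial_of_subsingleton ↥L
  · intro M hM hnorm
    have hn : (M.subgroupOf L).Normal := ⟨fun m hm l => hnorm l l.2 m hm⟩
    rcases CfsgLib.Components.quasisimple_normal h hn with hc | hc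
    · refine Or.inr fun m hm l hl => ?_
      have := Subgroup.mem_center_iff.mp (hc (x := ⟨m, hM hm⟩) hm) ⟨l, hl⟩
      exact (congrArg Subtype.val this).symm
    · exact Or.inl (le_antisymm hM (Subgroup.subgroupOf_eq_top.mp hc))
  · intro x hx
    exact CfsgLib.Components.centralizer_generalizedFittingSubgroup_le
      (Subgroup.mem_centralizer_iff.mpr fun l hl => (hx l hl).symm)

theorem exists_pairs {n : ℕ} (P : Sylow 2 ↥(alternatingGroup (Fin n))) :
    ∃ e : Fin (n / 2) × Bool ↪ Fin n, ∀ i j, i ≠ j →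
      dbl e i j ∈ (P : Subgroup ↥(alternatingGroup (Fin n))).map (alternatingGroup (Fin n)).subtype := by
  let e₀ : Fin (n / 2) × Bool ↪ Fin n :=
    ⟨fun p => ⟨2 * p.1.val + bif p.2 then 1 else 0, by have := p.1.isLt; cases p.2 <;> simp <;> omega⟩,
      fun ⟨i, b⟩ ⟨j, c⟩ h => by
        have h' : 2 * i.val + (bif b then 1 else 0) = 2 * j.val + (bif c then 1 else 0) := congrArg Fin.val h
        cases b <;> cases c <;> simp at h' <;> first | exact Prod.ext (Fin.ext (by omega)) rfl | omega⟩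
  let S : Fin n → Fin n → Prop := fun x y => x = y ∨ ∃ i b, x = e₀ (i, b) ∧ y = e₀ (i, !b)
  have hsymm : ∀ x y, S x y → S y x := by
    rintro x y (rfl | ⟨i, b, rfl, rfl⟩)
    · exact Or.inl rfl
    · exact Or.inr ⟨i, !b, rfl, by rw [Bool.not_not]⟩
  let Q : Subgroup ↥(alternatingGroup (Fin n)) :=
    { carrier := {g | ∀ x, S x ((g : Perm (Fin n)) x)}
      one_mem' := fun x => Or.inl (by simp)
      mul_mem' := fun {a b} ha hb x => by
        show S x ((a : Perm (Fin n)) ((b : Perm (Fin n)) x))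
        rcases hb x with h | ⟨i, c, h1, h2⟩
        · rw [← h]; exact ha x
        · rw [h2]
          rcases ha (e₀ (i, !c)) with h | ⟨j, d, h3, h4⟩
          · rw [← h, h1]; exact Or.inr ⟨i, c, rfl, rfl⟩
          · obtain ⟨rfl, rfl⟩ := Prod.ext_iff.mp (e₀.injective h3)
            rw [h4, h1, Bool.not_not]
            exact Or.inl rfl
      inv_mem' := fun {a} ha x => by
        have := ha ((a : Perm (Fin n))⁻¹ x)
        rw [← Perm.mul_apply, mul_inv_cancel, Perm.one_apply] at this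
        exact hsymm _ _ this }
  have hQ : IsPGroup 2 ↥Q := by
    intro g
    refine ⟨1, ?_⟩
    rw [pow_one, pow_two]
    refine Subtype.ext (Subtype.ext (Perm.ext fun x => ?_))
    show ((g : ↥(alternatingGroup (Fin n))) : Perm (Fin n)) (((g : ↥(alternatingGroup (Fin n))) : Perm (Fin n)) x) = x
    rcases g.2 x with h | ⟨i, b, h1, h2⟩
    · rw [← h, ← h]
    · rw [h2]
      rcases g.2 (e₀ (i, !b)) with h | ⟨j, d, h3, h4⟩
      · exfalso
        rw [← h2] at h
        have := (((g : ↥(alternatingGroup (Fin n))) : Perm (Fin n))).injective h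
        rw [h2] at this
        rw [h1] at this
        simp at this
      · obtain ⟨rfl, rfl⟩ := Prod.ext_iff.mp (e₀.injective h3)
        rw [h4, Bool.not_not, h1]
  obtain ⟨P₁, hP₁⟩ := hQ.exists_le_sylow
  obtain ⟨g, hg⟩ := MulAction.exists_smul_eq ↥(alternatingGroup (Fin n)) P₁ P
  refine ⟨e₀.trans (g : Perm (Fin n)).toEmbedding, fun i j h => ?_⟩
  have hsgn : dbl e₀ i j ∈ alternatingGroup (Fin n) := by
    rw [Perm.mem_alternatingGroup, dbl, map_mul, Perm.sign_swap (by simp), Perm.sign_swap (by simp)]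
    rfl
  have hQd : (⟨dbl e₀ i j, hsgn⟩ : ↥(alternatingGroup (Fin n))) ∈ Q := by
    intro x
    show S x (dbl e₀ i j x)
    by_cases hx : ∃ b, x = e₀ (i, b) ∨ x = e₀ (j, b)
    · obtain ⟨b, rfl | rfl⟩ := hx
      · exact Or.inr ⟨i, b, rfl, (dbl_flip h b).1⟩
      · exact Or.inr ⟨j, b, rfl, (dbl_flip h b).2⟩
    · push Not at hx
      exact Or.inl (dbl_fix (fun b => (hx b).1) fun b => (hx b).2).symm
  refine ⟨g * ⟨dbl e₀ i j, hsgn⟩ * g⁻¹, ?_, ?_⟩
  · rw [← hg, Sylow.coe_subgroup_smul]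
    exact ⟨_, hP₁ hQd, rfl⟩
  · show (g : Perm (Fin n)) * dbl e₀ i j * (g : Perm (Fin n))⁻¹ = _
    refine mul_inv_eq_iff_eq_mul.mpr ?_
    rw [dbl, dbl, mul_assoc (swap _ _) (swap _ _) (g : Perm (Fin n))]
    simp only [Function.Embedding.trans_apply, Equiv.coe_toEmbedding]
    rw [← Equiv.mul_swap_eq_swap_mul, ← mul_assoc (swap _ _) (g : Perm (Fin n)),
      ← Equiv.mul_swap_eq_swap_mul, mul_assoc]

/-- Restriction to an invariant finite set. -/
def restrict {G α : Type*} [Group G] (φ : G →* Perm α) (Δ : Finset α) (h : ∀ g x, φ g x ∈ Δ ↔ x ∈ Δ) :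
    G →* Perm {x // x ∈ Δ} where
  toFun g := (φ g).subtypePerm (h g)
  map_one' := by ext x; simp
  map_mul' a b := by ext x; simp; rfl

theorem main {n : ℕ} (hn : 8 ≤ n) (H : Subgroup (Perm (Fin n)))
    (hF : Cfsg.IsQuasisimple ↥(Cfsg.generalizedFittingSubgroup ↥H))
    (hS : ∃ P : Sylow 2 ↥(alternatingGroup (Fin n)),
      ((P : Subgroup ↥(alternatingGroup (Fin n))).map (alternatingGroup (Fin n)).subtype) ≤ H) :
    ∃ m : ℕ, (m = n - 3 ∨ m = n - 2 ∨ m = n - 1 ∨ m = n) ∧
      Nonempty (↥(Cfsg.generalizedFittingSubgroup ↥H) ≃* ↥(alternatingGroup (Fin m))) := by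
  classical
  set L := Cfsg.generalizedFittingSubgroup ↥H with hLdef
  have hL : Core L := core_of_quasisimple hF
  obtain ⟨P, hP⟩ := hS
  obtain ⟨e, he⟩ := exists_pairs P
  let φ : ↥H →* Perm (Fin n) := H.subtype
  have hφ : Function.Injective φ := Subgroup.subtype_injective H
  have hφe : HasPairs φ e := fun i j h => ⟨⟨_, hP (he i j h)⟩, rfl⟩
  have hm : 4 ≤ n / 2 := by omega
  obtain ⟨l₀, hl₀, a, ha⟩ : ∃ l ∈ L, ∃ a, φ l a ≠ a := by
    by_contra hcon
    push Not at hcon
    exact hL.ne_bot ((Subgroup.eq_bot_iff_forall _).mpr fun l hl =>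
      hφ (Perm.ext fun x => by rw [map_one, Perm.one_apply]; exact hcon l hl x))
  have hout := hL.outside hφe (by omega) hl₀ ha
  let Δ : Finset (Fin n) := Finset.univ.filter fun x => x ∈ orb φ a
  have hΔ : ∀ x, x ∈ Δ ↔ x ∈ orb φ a := fun x => by simp [Δ]
  have hinvΔ : ∀ g x, φ g x ∈ Δ ↔ x ∈ Δ := fun g x => by
    rw [hΔ, hΔ]
    exact ⟨fun h => by have := orb_inv a g⁻¹ h; rwa [inv_apply_apply'] at this, orb_inv a g⟩
  let ψ := restrict φ Δ hinvΔ
  have hψv : ∀ g (x : {x // x ∈ Δ}), ((ψ g x : {x // x ∈ Δ}) : Fin n) = φ g x := fun g x => rfl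
  have hψ : Function.Injective ψ := by
    rw [injective_iff_map_eq_one]
    intro g hg
    refine hL.faithful hφ hout fun c hc => ?_
    have := hψv g ⟨c, (hΔ c).mpr hc⟩
    rw [hg] at this
    exact this.symm
  have haΔ : a ∈ Δ := (hΔ a).mpr ⟨1, by simp⟩
  -- pairs in the orbit
  have hpair : ∀ k b, e (k, b) ∈ Δ → ∀ b', e (k, b') ∈ Δ := fun k b h b' =>
    (hΔ _).mpr ((orb_closed hφe a).pair (by omega) ((hΔ _).mp h) b')
  have htwo : ∀ i j : Fin (n / 2), i ≠ j → e (i, false) ∈ Δ ∨ e (j, false) ∈ Δ := fun i j h =>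
    (hL.pairs_in_orb hφe (by omega) hl₀ ha h).imp (hΔ _).mpr (hΔ _).mpr
  have hcard : n - 3 ≤ Δ.card := by
    let B : Finset (Fin (n / 2)) := Finset.univ.filter fun k => e (k, false) ∈ Δ
    have hB : n / 2 - 1 ≤ B.card := by
      have hc : (Finset.univ.filter fun k => ¬ e (k, false) ∈ Δ).card ≤ 1 := by
        rw [Finset.card_le_one]
        intro i hi j hj
        by_contra h
        rcases htwo i j h with h' | h'
        · exact (Finset.mem_filter.mp hi).2 h'
        · exact (Finset.mem_filter.mp hj).2 h'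
      have := Finset.card_filter_add_card_filter_not (s := (Finset.univ : Finset (Fin (n / 2))))
        (fun k => e (k, false) ∈ Δ)
      rw [Finset.card_univ, Fintype.card_fin] at this
      show n / 2 - 1 ≤ (Finset.univ.filter fun k => e (k, false) ∈ Δ).card
      omega
    have hsub : (B ×ˢ (Finset.univ : Finset Bool)).map e ⊆ Δ := fun x hx => by
      obtain ⟨⟨k, b⟩, hk, rfl⟩ := Finset.mem_map.mp hx
      rw [Finset.mem_product] at hk
      exact hpair k false (Finset.mem_filter.mp hk.1).2 b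
    have := Finset.card_le_card hsub
    rw [Finset.card_map, Finset.card_product, Finset.card_univ, Fintype.card_bool] at this
    omega
  have hΔn : Δ.card ≤ n := by simpa using Finset.card_le_univ Δ
  -- primitivity
  haveI htrans : MulAction.IsPretransitive ↥ψ.range {x // x ∈ Δ} := by
    refine ⟨fun u v => ?_⟩
    obtain ⟨g, hg⟩ := (hΔ _).mp u.2
    obtain ⟨h, hh⟩ := (hΔ _).mp v.2
    refine ⟨⟨ψ (h * g⁻¹), _, rfl⟩, Subtype.ext ?_⟩
    show φ (h * g⁻¹) u = v
    rw [map_mul, Perm.mul_apply, ← hg, inv_apply_apply', hh]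
  have hprim : MulAction.IsPreprimitive ↥ψ.range {x // x ∈ Δ} := by
    refine MulAction.IsPreprimitive.of_isTrivialBlock_base ⟨a, haΔ⟩ fun {B} haB hB => ?_
    by_contra hnt
    rw [MulAction.IsTrivialBlock, not_or] at hnt
    obtain ⟨q, hq, hne⟩ : ∃ q ∈ B, q ≠ (⟨a, haΔ⟩ : {x // x ∈ Δ}) := by
      by_contra hcon
      push Not at hcon
      exact hnt.1 fun u hu v hv => (hcon u hu).trans (hcon v hv).symm
    obtain ⟨c, hc⟩ := (Set.ne_univ_iff_exists_notMem B).mp hnt.2
    let R : Fin n → Fin n → Prop := fun u v =>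
      ∃ (u' v' : {x // x ∈ Δ}) (g : ↥ψ.range), (u' : Fin n) = u ∧ (v' : Fin n) = v ∧ u' ∈ g • B ∧ v' ∈ g • B
    have hblk : ∀ g h : ↥ψ.range, ∀ x, x ∈ g • B → x ∈ h • B → g • B = h • B := fun g h x h1 h2 => by
      rcases hB.smul_eq_smul_or_disjoint g h with h' | h'
      · exact h'
      · exact absurd h2 (Set.disjoint_left.mp h' h1)
    refine hL.no_relation hφ hφe (by omega) hout R ?_ ?_ ?_ ?_ ?_ (p := a) (q := (q : Fin n))
      ⟨⟨a, haΔ⟩, q, 1, rfl, rfl, by rwa [one_smul], by rwa [one_smul]⟩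
      (fun h => hne (Subtype.ext h.symm)) (c := (c : Fin n)) ((hΔ _).mp c.2) ?_
    · rintro u v ⟨u', v', g, rfl, rfl, -, -⟩
      exact ⟨(hΔ _).mp u'.2, (hΔ _).mp v'.2⟩
    · intro u hu
      obtain ⟨g, hg⟩ := MulAction.exists_smul_eq ↥ψ.range (⟨a, haΔ⟩ : {x // x ∈ Δ}) ⟨u, (hΔ u).mpr hu⟩
      exact ⟨_, _, g, rfl, rfl, hg ▸ Set.smul_mem_smul_set haB, hg ▸ Set.smul_mem_smul_set haB⟩
    · rintro u v ⟨u', v', g, h1, h2, h3, h4⟩
      exact ⟨v', u', g, h2, h1, h4, h3⟩
    · rintro u v w ⟨u', v', g, h1, h2, h3, h4⟩ ⟨v'', w', h, h5, h6, h7, h8⟩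
      obtain rfl : v' = v'' := Subtype.ext (h2.trans h5.symm)
      exact ⟨u', w', g, h1, h6, h3, (hblk g h _ h4 h7).symm ▸ h8⟩
    · rintro k u v ⟨u', v', g, rfl, rfl, h3, h4⟩
      refine ⟨ψ k u', ψ k v', ⟨ψ k, _, rfl⟩ * g, rfl, rfl, ?_, ?_⟩ <;> rw [mul_smul]
      · exact Set.smul_mem_smul_set h3
      · exact Set.smul_mem_smul_set h4
    · rintro ⟨u', v', g, h1, h2, h3, h4⟩
      obtain rfl : u' = ⟨a, haΔ⟩ := Subtype.ext h1
      obtain rfl : v' = c := Subtype.ext h2
      have hB' : g • B = (1 : ↥ψ.range) • B := hblk g 1 _ h3 (by rwa [one_smul])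
      rw [hB', one_smul] at h4
      exact hc h4
  -- the alternating group of the orbit
  have halt : alternatingGroup {x // x ∈ Δ} ≤ ψ.range := by
    by_cases hall : ∀ k, e (k, false) ∈ Δ
    · let e' : Fin (n / 2) × Bool ↪ {x // x ∈ Δ} :=
        ⟨fun p => ⟨e p, hpair p.1 false (hall p.1) p.2⟩, fun p q h => e.injective (congrArg Subtype.val h)⟩
      refine hL.alt_le hψ (e := e') ?_ hm ?_ hprim
      · intro i j h
        obtain ⟨g, hg⟩ := hφe i j h
        refine ⟨g, Perm.ext fun x => Subtype.ext ?_⟩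
        rw [hψv, hg]
        simp only [dbl, Perm.mul_apply]
        rw [← Function.Injective.swap_apply Subtype.val_injective,
          ← Function.Injective.swap_apply Subtype.val_injective]
        rfl
      · rw [Fintype.card_coe]
        omega
    · push Not at hall
      obtain ⟨j, hj⟩ := hall
      obtain ⟨i, hij, -⟩ := exists_third (show 3 ≤ n / 2 by omega) j j
      have hi : e (i, false) ∈ Δ := (htwo i j hij).resolve_right hj
      obtain ⟨g, hg⟩ := hφe i j hij
      have htop : ψ.range = ⊤ := by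
        refine Perm.subgroup_eq_top_of_isPreprimitive_of_isSwap_mem hprim (ψ g)
          ⟨⟨e (i, false), hi⟩, ⟨e (i, true), hpair i false hi true⟩, ?_, ?_⟩ ⟨g, rfl⟩
        · intro h
          have := Prod.ext_iff.mp (e.injective (congrArg Subtype.val h))
          exact Bool.false_ne_true this.2
        · refine Perm.ext fun x => Subtype.ext ?_
          rw [hψv, hg, dbl, Perm.mul_apply]
          rw [@swap_apply_of_ne_of_ne _ _ (e (j, false)) (e (j, true)) _ (fun h => hj (by rw [← h]; exact x.2))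
            (fun h => hj (hpair j true (by rw [← h]; exact x.2) false))]
          exact (Function.Injective.swap_apply Subtype.val_injective
            (⟨e (i, false), hi⟩ : {x // x ∈ Δ}) ⟨e (i, true), hpair i false hi true⟩ x)
      rw [htop]
      exact le_top
  -- the isomorphism
  refine ⟨Δ.card, by omega, ?_⟩
  let L' := L.map ψ
  have hL'alt : L' ≤ alternatingGroup {x // x ∈ Δ} := by
    show L.map ψ ≤ _
    rw [← hL.perfect, Subgroup.map_commutator, Subgroup.commutator_le]
    intro u _ v _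
    rw [Perm.mem_alternatingGroup, map_commutatorElement, commutatorElement_eq_one_iff_mul_comm]
    exact mul_comm _ _
  haveI : IsSimpleGroup ↥(alternatingGroup {x // x ∈ Δ}) := alternatingGroup.isSimpleGroup (by
    rw [Nat.card_eq_fintype_card, Fintype.card_coe]; omega)
  have hn' : (L'.subgroupOf (alternatingGroup {x // x ∈ Δ})).Normal := by
    refine ⟨fun x hx y => ?_⟩
    obtain ⟨l, hl, hlx⟩ := hx
    obtain ⟨g, hgy⟩ := halt y.2
    have hlx' : ψ l = (x : Perm {x // x ∈ Δ}) := hlx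
    refine ⟨g * l * g⁻¹, hL.normal.conj_mem l hl g, ?_⟩
    rw [map_mul, map_mul, map_inv, hlx', hgy]
    rfl
  have htopL : L' = alternatingGroup {x // x ∈ Δ} := by
    refine le_antisymm hL'alt (Subgroup.subgroupOf_eq_top.mp ((hn'.eq_bot_or_eq_top).resolve_left fun hb => ?_))
    rw [Subgroup.subgroupOf_eq_bot, disjoint_iff, inf_eq_left.mpr hL'alt,
      Subgroup.map_eq_bot_iff_of_injective _ hψ] at hb
    exact hL.ne_bot hb
  exact ⟨(L.equivMapOfInjective ψ hψ).trans ((MulEquiv.subgroupCongr htopL).trans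
    (Equiv.altCongrHom (Δ.equivFin)))⟩

end CfsgLib.SymSylowTwo
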