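import Cfsg.Agent.SymSylowTwo.Setup

/-!
The orbit on which the perfect normal subgroup acts nontrivially, and the absence of invariant
equivalence relations on it.
-/

set_option autoImplicit false
open Equiv

namespace CfsgLib.SymSylowTwo

variable {G : Type*} [Group G] {L : Subgroup G} {α : Type*} [Fintype α] [DecidableEq α]
  {φ : G →* Perm α} {m : ℕ} {e : Fin m × Bool ↪ α}

theorem apply_inv_apply' (φ : G →* Perm α) (g : G) (x : α) : φ g (φ g⁻¹ x) = x := by
  rw [← Perm.mul_apply, ← map_mul, mul_inv_cancel, map_one, Perm.one_apply]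

theorem inv_apply_apply' (φ : G →* Perm α) (g : G) (x : α) : φ g⁻¹ (φ g x) = x := by
  rw [← Perm.mul_apply, ← map_mul, inv_mul_cancel, map_one, Perm.one_apply]

/-- The orbit of `a`, as a set. -/
def orb (φ : G →* Perm α) (a : α) : Set α := {x | ∃ g : G, φ g a = x}

theorem orb_inv (a : α) (g : G) {c : α} (hc : c ∈ orb φ a) : φ g c ∈ orb φ a := by
  obtain ⟨h, rfl⟩ := hc
  exact ⟨g * h, by rw [map_mul, Perm.mul_apply]⟩

theorem orb_closed (hφe : HasPairs φ e) (a : α) : Closed e (orb φ a) := fun i j h c hc => by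
  obtain ⟨g, hg⟩ := hφe i j h
  rw [← hg]
  exact orb_inv a g hc

theorem Core.outside (hL : Core L) (hφe : HasPairs φ e) (hm : 3 ≤ m) {l₀ : G} (hl₀ : l₀ ∈ L) {a : α}
    (ha : φ l₀ a ≠ a) : ∀ b, b ∉ orb φ a → ∀ l ∈ L, φ l b = b := by
  intro b hb l hl
  by_contra hne
  refine hL.two_sets hφe hm (C := orb φ a) (C' := orb φ b) (orb_closed hφe a) (orb_closed hφe b)
    (fun l _ c hc => orb_inv a l hc) (fun l _ c hc => orb_inv b l hc)
    ⟨l₀, hl₀, a, ⟨1, by simp⟩, ha⟩ ⟨l, hl, b, ⟨1, by simp⟩, hne⟩ ?_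
  rintro c ⟨g, hg⟩ ⟨h, hh⟩
  exact hb ⟨h⁻¹ * g, by rw [map_mul, Perm.mul_apply, hg, ← hh, inv_apply_apply']⟩

theorem Core.faithful (hL : Core L) (hφ : Function.Injective φ) {a : α}
    (hout : ∀ b, b ∉ orb φ a → ∀ l ∈ L, φ l b = b) {g : G} (hg : ∀ c ∈ orb φ a, φ g c = c) : g = 1 := by
  have hnot : ∀ c, c ∉ orb φ a → φ g c ∉ orb φ a := fun c hc h => hc (by
    have := orb_inv a g⁻¹ h
    rwa [inv_apply_apply'] at this)
  have hgL : g ∈ L := hL.cent g fun l hl => hφ (Perm.ext fun c => by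
    rw [map_mul, map_mul, Perm.mul_apply, Perm.mul_apply]
    by_cases hc : c ∈ orb φ a
    · rw [hg c hc, hg _ (orb_inv a l hc)]
    · rw [hout c hc l hl, hout _ (hnot c hc) l hl])
  refine hφ (Perm.ext fun c => ?_)
  rw [map_one, Perm.one_apply]
  by_cases hc : c ∈ orb φ a
  · exact hg c hc
  · exact hout c hc g hgL

theorem Core.pairs_in_orb (hL : Core L) (hφe : HasPairs φ e) (hm : 3 ≤ m) {l₀ : G} (hl₀ : l₀ ∈ L) {a : α}
    (ha : φ l₀ a ≠ a) {i j : Fin m} (h : i ≠ j) : e (i, false) ∈ orb φ a ∨ e (j, false) ∈ orb φ a :=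
  hL.pair_mem hφe hm (orb_closed hφe a) (fun l _ c hc => orb_inv a l hc) ⟨l₀, hl₀, a, ⟨1, by simp⟩, ha⟩ h

theorem Core.no_relation (hL : Core L) (hφ : Function.Injective φ) (hφe : HasPairs φ e) (hm : 3 ≤ m) {a : α}
    (hout : ∀ b, b ∉ orb φ a → ∀ l ∈ L, φ l b = b)
    (R : α → α → Prop) (hmem : ∀ u v, R u v → u ∈ orb φ a ∧ v ∈ orb φ a)
    (hrefl : ∀ u ∈ orb φ a, R u u) (hsymm : ∀ u v, R u v → R v u) (htrans : ∀ u v w, R u v → R v w → R u w)
    (hinv : ∀ (g : G) u v, R u v → R (φ g u) (φ g v))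
    {p q : α} (hpq : R p q) (hne : p ≠ q) {c : α} (hc : c ∈ orb φ a) (hpc : ¬ R p c) : False := by
  have horb : ∀ u ∈ orb φ a, ∀ v ∈ orb φ a, ∃ g, φ g u = v := by
    rintro u ⟨g, rfl⟩ v ⟨h, rfl⟩
    exact ⟨h * g⁻¹, by rw [map_mul, Perm.mul_apply, inv_apply_apply']⟩
  have hbig : ∀ u ∈ orb φ a, ∃ v, R u v ∧ u ≠ v := by
    intro u hu
    obtain ⟨g, rfl⟩ := horb p (hmem _ _ hpq).1 u hu
    exact ⟨φ g q, hinv g _ _ hpq, fun h => hne ((φ g).injective h)⟩
  have hpair : ∀ (i : Fin m) (b : Bool), e (i, b) ∈ orb φ a → R (e (i, b)) (e (i, !b)) := by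
    intro i b hu
    obtain ⟨v, huv, hne'⟩ := hbig _ hu
    by_cases hv : v = e (i, !b)
    · exact hv ▸ huv
    obtain ⟨j, hji, hjv⟩ : ∃ j, j ≠ i ∧ ∀ b', v ≠ e (j, b') := by
      by_cases h' : ∃ k b', v = e (k, b')
      · obtain ⟨k, b', rfl⟩ := h'
        obtain ⟨j, h1, h2⟩ := exists_third hm i k
        exact ⟨j, h1, fun b'' h => h2 (Prod.ext_iff.mp (e.injective h)).1.symm⟩
      · push Not at h'
        obtain ⟨j, h1, -⟩ := exists_third hm i i
        exact ⟨j, h1, fun b' => h' j b'⟩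
    have hvi : ∀ b', v ≠ e (i, b') := fun b' => by
      cases b <;> cases b' <;> first | exact Ne.symm hne' | exact hv
    obtain ⟨g, hg⟩ := hφe i j hji.symm
    have := hinv g _ _ huv
    rw [hg, (dbl_flip hji.symm b).1, dbl_fix hvi hjv] at this
    exact htrans _ _ _ huv (hsymm _ _ this)
  have hclass : ∀ i j : Fin m, i ≠ j → ∀ u ∈ orb φ a, R u (dbl e i j u) := by
    intro i j h u hu
    by_cases h' : ∃ b, u = e (i, b) ∨ u = e (j, b)
    · obtain ⟨b, rfl | rfl⟩ := h'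
      · rw [(dbl_flip h b).1]; exact hpair i b hu
      · rw [(dbl_flip h b).2]; exact hpair j b hu
    · push Not at h'
      rw [dbl_fix (fun b => (h' b).1) fun b => (h' b).2]
      exact hrefl u hu
  let K : Subgroup G :=
    { carrier := {g | ∀ u ∈ orb φ a, R u (φ g u)}
      one_mem' := fun u hu => by simpa using hrefl u hu
      mul_mem' := fun {g h} hg hh u hu => by
        rw [map_mul, Perm.mul_apply]
        exact htrans _ _ _ (hh u hu) (hg _ (orb_inv a h hu))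
      inv_mem' := fun {g} hg u hu => by
        have := hg _ (orb_inv a g⁻¹ hu)
        rw [apply_inv_apply'] at this
        exact hsymm _ _ this }
  have hKn : K.Normal := ⟨fun k hk g u hu => by
    have := hinv g _ _ (hk _ (orb_inv a g⁻¹ hu))
    rw [apply_inv_apply'] at this
    rw [map_mul, map_mul, Perm.mul_apply, Perm.mul_apply]
    exact this⟩
  obtain ⟨i, j, hij⟩ : ∃ i j : Fin m, i ≠ j := ⟨⟨0, by omega⟩, ⟨1, by omega⟩, by simp⟩
  obtain ⟨x, hx⟩ := hφe i j hij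
  have hxK : x ∈ K := fun u hu => by rw [hx]; exact hclass i j hij u hu
  rcases hL.dichotomy K hKn with hLK | hcom
  · have hmove : ∀ u ∈ orb φ a, ∃ l ∈ L, φ l u ≠ u := by
      intro u hu
      by_contra hcon
      push Not at hcon
      refine hL.ne_bot ((Subgroup.eq_bot_iff_forall _).mpr fun l hl => hφ (Perm.ext fun y => ?_))
      rw [map_one, Perm.one_apply]
      by_cases hy : y ∈ orb φ a
      · obtain ⟨g, rfl⟩ := horb u hu y hy
        have := hcon _ (hL.normal.conj_mem l hl g⁻¹)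
        rw [inv_inv, map_mul, map_mul, Perm.mul_apply, Perm.mul_apply] at this
        have := congrArg (φ g) this
        rwa [apply_inv_apply'] at this
      · exact hout y hy l hl
    have hnt : ∀ u ∈ orb φ a, ∃ l ∈ L, ∃ y ∈ {y | R u y}, φ l y ≠ y := fun u hu => by
      obtain ⟨l, hl, hne⟩ := hmove u hu
      exact ⟨l, hl, u, hrefl u hu, hne⟩
    have hcl : ∀ u, Closed e {y | R u y} := fun u i j h y hy =>
      htrans _ _ _ hy (hclass i j h y (hmem _ _ hy).2)
    have hLC : ∀ u, ∀ l ∈ L, ∀ y ∈ {y | R u y}, φ l y ∈ {y | R u y} := fun u l hl y hy =>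
      htrans _ _ _ hy (hLK hl y (hmem _ _ hy).2)
    exact hL.two_sets hφe hm (hcl p) (hcl c) (hLC p) (hLC c) (hnt p (hmem _ _ hpq).1) (hnt c hc)
      fun y h1 h2 => hpc (htrans _ _ _ h1 (hsymm _ _ h2))
  · exact hL.no_small_central (φ := φ) (x := x) (by rw [hx]; exact dbl_ne_one hij)
      (by rw [hx, dbl_support hij, card_quad hij]) (hcom x hxK)

end CfsgLib.SymSylowTwo
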