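import Mathlib
import Cfsg.Agent.DivSL25.Main
import Cfsg.Agent.Components.Basic

/-!
Permutation representations of groups with a perfect normal subgroup containing its centralizer, in which
the products of two transpositions from a family of disjoint transpositions occur.
-/

set_option autoImplicit false
open Equiv
open scoped commutatorElement

namespace CfsgLib.SymSylowTwo

variable {G : Type*} [Group G]

/-- A perfect normal subgroup containing its centralizer, whose proper normal subgroups are central. -/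
structure Core (L : Subgroup G) : Prop where
  normal : L.Normal
  perfect : ⁅L, L⁆ = L
  ne_bot : L ≠ ⊥
  sub : ∀ M : Subgroup G, M ≤ L → (∀ l ∈ L, ∀ m ∈ M, l * m * l⁻¹ ∈ M) →
    M = L ∨ ∀ m ∈ M, ∀ l ∈ L, m * l = l * m
  cent : ∀ x : G, (∀ l ∈ L, x * l = l * x) → x ∈ L

variable {L : Subgroup G}

theorem Core.commute_of_central (hL : Core L) {x : G}
    (h : ∀ l ∈ L, ∀ l' ∈ L, (x * l * x⁻¹ * l⁻¹) * l' = l' * (x * l * x⁻¹ * l⁻¹)) :
    ∀ l ∈ L, x * l = l * x := by
  have hle : ⁅L, L⁆ ≤ Subgroup.centralizer ({x} : Set G) := by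
    rw [Subgroup.commutator_le]
    intro a ha b hb
    rw [Subgroup.mem_centralizer_singleton_iff]
    set z₁ := x * a * x⁻¹ * a⁻¹ with hz₁
    set z₂ := x * b * x⁻¹ * b⁻¹ with hz₂
    have ca : x * a * x⁻¹ = z₁ * a := by rw [hz₁]; group
    have cb : x * b * x⁻¹ = z₂ * b := by rw [hz₂]; group
    have hL' := hL.normal
    have hz₁L : z₁ ∈ L := L.mul_mem (hL'.conj_mem a ha x) (L.inv_mem ha)
    have hz₂L : z₂ ∈ L := L.mul_mem (hL'.conj_mem b hb x) (L.inv_mem hb)
    have c1 : ∀ l ∈ L, Commute z₁ l := fun l hl => h a ha l hl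
    have c2 : ∀ l ∈ L, Commute z₂ l := fun l hl => h b hb l hl
    have e : ⁅z₁ * a, z₂ * b⁆ = ⁅a, b⁆ := by
      have k1 : z₁ * a * (z₂ * b) = z₁ * z₂ * (a * b) := by
        rw [mul_assoc, ← mul_assoc a, ← (c2 a ha).eq]; simp only [mul_assoc]
      have k2 : z₂ * b * (z₁ * a) = z₁ * z₂ * (b * a) := by
        rw [mul_assoc, ← mul_assoc b, ← (c1 b hb).eq, (c1 z₂ hz₂L).eq]; simp only [mul_assoc]
      calc ⁅z₁ * a, z₂ * b⁆ = (z₁ * a * (z₂ * b)) * (z₂ * b * (z₁ * a))⁻¹ := by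
            rw [commutatorElement_def]; group
        _ = (z₁ * z₂) * ((a * b) * (b * a)⁻¹) * (z₁ * z₂)⁻¹ := by rw [k1, k2]; group
        _ = ((a * b) * (b * a)⁻¹) * (z₁ * z₂) * (z₁ * z₂)⁻¹ := by
            have hab : (a * b) * (b * a)⁻¹ ∈ L := L.mul_mem (L.mul_mem ha hb) (L.inv_mem (L.mul_mem hb ha))
            rw [((c1 _ hab).mul_left (c2 _ hab)).eq]
        _ = ⁅a, b⁆ := by rw [commutatorElement_def]; group
    have hx : x * ⁅a, b⁆ * x⁻¹ = ⁅a, b⁆ := by
      rw [conjugate_commutatorElement, ca, cb, e]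
    calc ⁅a, b⁆ * x = x * ⁅a, b⁆ * x⁻¹ * x := by rw [hx]
      _ = x * ⁅a, b⁆ := by group
  rw [hL.perfect] at hle
  intro l hl
  have := Subgroup.mem_centralizer_singleton_iff.mp (hle hl)
  first
    | exact this
    | exact this.symm

theorem Core.dichotomy (hL : Core L) (N : Subgroup G) (hN : N.Normal) :
    L ≤ N ∨ ∀ x ∈ N, ∀ l ∈ L, x * l = l * x := by
  rcases hL.sub (N ⊓ L) inf_le_right
    (fun l hl m hm => ⟨hN.conj_mem m hm.1 l, hL.normal.conj_mem m hm.2 l⟩) with h | h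
  · exact Or.inl (h ▸ inf_le_left)
  · refine Or.inr fun x hx => hL.commute_of_central fun l hl l' hl' => h _ ⟨?_, ?_⟩ l' hl'
    · rw [show x * l * x⁻¹ * l⁻¹ = x * (l * x⁻¹ * l⁻¹) by group]
      exact N.mul_mem hx (hN.conj_mem _ (N.inv_mem hx) l)
    · exact L.mul_mem (hL.normal.conj_mem l hl x) (L.inv_mem hl)

theorem Core.ne_commutative (hL : Core L) (h : ∀ a ∈ L, ∀ b ∈ L, a * b = b * a) : False := by
  refine hL.ne_bot (hL.perfect ▸ (Subgroup.commutator_le.mpr fun a ha b hb => ?_ : ⁅L, L⁆ ≤ ⊥) |> le_bot_iff.mp)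
  rw [Subgroup.mem_bot, commutatorElement_eq_one_iff_mul_comm]
  exact h a ha b hb

variable {α : Type*} [Fintype α] [DecidableEq α] {φ : G →* Perm α}

theorem Core.fix_of_small (hL : Core L) (S : Finset α) (hS : S.card ≤ 4)
    (hinv : ∀ l ∈ L, ∀ s ∈ S, φ l s ∈ S) : ∀ l ∈ L, ∀ s ∈ S, φ l s = s := by
  have hiff : ∀ l : L, ∀ s, φ (l : G) s ∈ S ↔ s ∈ S := fun l s =>
    ⟨fun h => by
      have := hinv _ (L.inv_mem l.2) _ h
      rwa [← Perm.mul_apply, ← map_mul, inv_mul_cancel, map_one, Perm.one_apply] at this,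
    hinv _ l.2 s⟩
  let ψ : ↥L →* Perm {s // s ∈ S} :=
    { toFun := fun l => (φ (l : G)).subtypePerm (hiff l)
      map_one' := by ext s; simp
      map_mul' := fun a b => by ext s; simp; rfl }
  haveI : Group.IsPerfect ↥L := Subgroup.isPerfect_iff.mpr hL.perfect
  haveI : Group.IsPerfect ↥ψ.range := Group.IsPerfect.ofSurjective ψ.rangeRestrict_surjective
  haveI : Group.IsSolvable (Perm {s // s ∈ S}) := by
    obtain ⟨ι⟩ : Nonempty ({s // s ∈ S} ↪ Fin 4) := Function.Embedding.nonempty_of_card_le (by simpa using hS)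
    haveI := CfsgLib.DivSL25.isSolvable_perm_four
    exact Group.isSolvable_of_isSolvable_injective (Perm.viaEmbeddingHom_injective ι)
  haveI : Group.IsSolvable ↥ψ.range :=
    Group.isSolvable_of_isSolvable_injective (Subgroup.subtype_injective ψ.range)
  have htriv : Subsingleton ↥ψ.range := by
    by_contra h
    rw [not_subsingleton_iff_nontrivial] at h
    exact Group.IsPerfect.not_isSolvable ↥ψ.range inferInstance
  intro l hl s hs
  have h1 : ψ ⟨l, hl⟩ = 1 := congrArg Subtype.val (htriv.elim ⟨ψ ⟨l, hl⟩, ⟨_, rfl⟩⟩ 1)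
  have := congrArg (fun f : Perm {s // s ∈ S} => (f ⟨s, hs⟩ : α)) h1
  simpa [ψ] using this

theorem Core.no_small_central (hL : Core L) {x : G} (hx : φ x ≠ 1) (hs : (φ x).support.card ≤ 4)
    (hc : ∀ l ∈ L, x * l = l * x) : False := by
  have hinv : ∀ l ∈ L, ∀ s ∈ (φ x).support, φ l s ∈ (φ x).support := fun l hl s hs' => by
    rw [Perm.mem_support] at hs' ⊢
    rw [← Perm.mul_apply, ← map_mul, hc l hl, map_mul, Perm.mul_apply]
    exact fun h => hs' ((φ l).injective h)
  have hfix := hL.fix_of_small _ hs hinv x (hL.cent x hc)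
  obtain ⟨s, hs'⟩ := Finset.nonempty_iff_ne_empty.mpr (mt Perm.support_eq_empty_iff.mp hx)
  exact Perm.mem_support.mp hs' (hfix s hs')

theorem Core.moves (hL : Core L) {C : Set α} (hLC : ∀ l ∈ L, ∀ c ∈ C, φ l c ∈ C)
    (hnt : ∃ l ∈ L, ∃ c ∈ C, φ l c ≠ c) {x : G} (hx : φ x ≠ 1) (hs : (φ x).support.card ≤ 4) :
    ∃ c ∈ C, φ x c ≠ c := by
  by_contra hcon
  push Not at hcon
  let M : Subgroup G :=
    { carrier := {g | g ∈ L ∧ ∀ c ∈ C, φ g c = c}
      one_mem' := ⟨L.one_mem, fun c _ => by simp⟩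
      mul_mem' := fun {a b} ha hb => ⟨L.mul_mem ha.1 hb.1, fun c hc => by
        rw [map_mul, Perm.mul_apply, hb.2 c hc, ha.2 c hc]⟩
      inv_mem' := fun {a} ha => ⟨L.inv_mem ha.1, fun c hc => by
        rw [map_inv, Perm.inv_eq_iff_eq, ha.2 c hc]⟩ }
  have hxc : ∀ l ∈ L, x * l * x⁻¹ * l⁻¹ ∈ M := fun l hl =>
    ⟨L.mul_mem (hL.normal.conj_mem l hl x) (L.inv_mem hl), fun c hc => by
      have h1 := hLC _ (L.inv_mem hl) c hc
      have h2 : φ x⁻¹ (φ l⁻¹ c) = φ l⁻¹ c := by
        rw [map_inv φ x, Perm.inv_eq_iff_eq, hcon _ h1]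
      rw [map_mul, map_mul, map_mul, Perm.mul_apply, Perm.mul_apply, Perm.mul_apply, h2,
        ← Perm.mul_apply (φ l), ← map_mul, mul_inv_cancel, map_one, Perm.one_apply, hcon c hc]⟩
  rcases hL.sub M (fun g hg => hg.1) (fun l hl m hm =>
    ⟨L.mul_mem (L.mul_mem hl hm.1) (L.inv_mem hl), fun c hc => by
      rw [map_mul, map_mul, Perm.mul_apply, Perm.mul_apply, hm.2 _ (hLC _ (L.inv_mem hl) c hc),
        ← Perm.mul_apply, ← map_mul, mul_inv_cancel, map_one, Perm.one_apply]⟩) with h | h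
  · obtain ⟨l, hl, c, hc, hne⟩ := hnt
    rw [← h] at hl
    exact hne (hl.2 c hc)
  · exact hL.no_small_central hx hs (hL.commute_of_central fun l hl l' hl' => h _ (hxc l hl) l' hl')

/-! ### A family of disjoint transpositions -/

/-- The product of the transpositions belonging to the pairs `i` and `j`. -/
def dbl {m : ℕ} (e : Fin m × Bool ↪ α) (i j : Fin m) : Perm α :=
  swap (e (i, false)) (e (i, true)) * swap (e (j, false)) (e (j, true))

variable {m : ℕ} {e : Fin m × Bool ↪ α}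

theorem dbl_flip {i j : Fin m} (h : i ≠ j) (b : Bool) :
    dbl e i j (e (i, b)) = e (i, !b) ∧ dbl e i j (e (j, b)) = e (j, !b) := by
  have hne : ∀ b c : Bool, e (i, b) ≠ e (j, c) := fun b c h' => h (Prod.ext_iff.mp (e.injective h')).1
  cases b <;> simp [dbl, swap_apply_of_ne_of_ne, hne, fun b c => (hne b c).symm]

theorem dbl_fix {i j : Fin m} {y : α} (hi : ∀ b, y ≠ e (i, b)) (hj : ∀ b, y ≠ e (j, b)) :
    dbl e i j y = y := by
  simp [dbl, swap_apply_of_ne_of_ne, hi, hj]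

/-- The four points moved by `dbl e i j`. -/
def quad (e : Fin m × Bool ↪ α) (i j : Fin m) : Finset α :=
  (({i, j} : Finset (Fin m)) ×ˢ (Finset.univ : Finset Bool)).map e

theorem mem_quad {i j : Fin m} {y : α} : y ∈ quad e i j ↔ ∃ b, y = e (i, b) ∨ y = e (j, b) := by
  simp only [quad, Finset.mem_map, Finset.mem_product, Finset.mem_insert, Finset.mem_singleton,
    Finset.mem_univ, and_true]
  constructor
  · rintro ⟨⟨k, b⟩, hk | hk, rfl⟩ <;> cases hk
    · exact ⟨b, Or.inl rfl⟩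
    · exact ⟨b, Or.inr rfl⟩
  · rintro ⟨b, rfl | rfl⟩
    · exact ⟨(i, b), Or.inl rfl, rfl⟩
    · exact ⟨(j, b), Or.inr rfl, rfl⟩

theorem card_quad {i j : Fin m} (h : i ≠ j) : (quad e i j).card = 4 := by
  simp [quad, Finset.card_pair h]

theorem dbl_support {i j : Fin m} (h : i ≠ j) : (dbl e i j).support = quad e i j := by
  ext y
  rw [Perm.mem_support, mem_quad]
  constructor
  · intro hy
    by_contra hno
    push Not at hno
    exact hy (dbl_fix (fun b => (hno b).1) fun b => (hno b).2)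
  · rintro ⟨b, rfl | rfl⟩
    · rw [(dbl_flip h b).1]; simp
    · rw [(dbl_flip h b).2]; simp

theorem dbl_ne_one {i j : Fin m} (h : i ≠ j) : dbl e i j ≠ 1 := by
  intro h1
  have := (dbl_support (e := e) h)
  rw [h1, Perm.support_one] at this
  have h4 := card_quad (e := e) h
  rw [← this, Finset.card_empty] at h4
  omega

theorem dbl_mul_self {i j : Fin m} (h : i ≠ j) : dbl e i j * dbl e i j = 1 := by
  ext y
  rw [Perm.mul_apply, Perm.one_apply]
  by_cases hy : ∃ b, y = e (i, b) ∨ y = e (j, b)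
  · obtain ⟨b, rfl | rfl⟩ := hy
    · rw [(dbl_flip h b).1, (dbl_flip h _).1, Bool.not_not]
    · rw [(dbl_flip h b).2, (dbl_flip h _).2, Bool.not_not]
  · push Not at hy
    have := dbl_fix (fun b => (hy b).1) fun b => (hy b).2
    rw [this, this]

theorem exists_third (hm : 3 ≤ m) (i j : Fin m) : ∃ k : Fin m, k ≠ i ∧ k ≠ j := by
  by_contra h
  push Not at h
  have hsub : (Finset.univ : Finset (Fin m)) ⊆ {i, j} := fun k _ => by
    by_cases hk : k = i
    · simp [hk]
    · simp [h k hk]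
  have := (Finset.card_le_card hsub).trans Finset.card_le_two
  simp at this
  omega

/-- `G` induces all products of two of the transpositions of the family. -/
def HasPairs (φ : G →* Perm α) (e : Fin m × Bool ↪ α) : Prop :=
  ∀ i j : Fin m, i ≠ j → ∃ g : G, φ g = dbl e i j

/-- Sets left invariant by all the products of two transpositions of the family. -/
def Closed (e : Fin m × Bool ↪ α) (C : Set α) : Prop :=
  ∀ i j : Fin m, i ≠ j → ∀ c ∈ C, dbl e i j c ∈ C

theorem Closed.pair (hm : 3 ≤ m) {C : Set α} (hC : Closed e C) {i : Fin m} {b : Bool}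
    (h : e (i, b) ∈ C) : ∀ b', e (i, b') ∈ C := by
  obtain ⟨k, hk, -⟩ := exists_third hm i i
  have := hC i k hk.symm _ h
  rw [(dbl_flip hk.symm b).1] at this
  intro b'
  cases b <;> cases b' <;> simp_all

theorem Core.pair_mem (hL : Core L) (hφe : HasPairs φ e) (hm : 3 ≤ m) {C : Set α} (hC : Closed e C)
    (hLC : ∀ l ∈ L, ∀ c ∈ C, φ l c ∈ C) (hnt : ∃ l ∈ L, ∃ c ∈ C, φ l c ≠ c) {i j : Fin m} (h : i ≠ j) :
    e (i, false) ∈ C ∨ e (j, false) ∈ C := by
  obtain ⟨g, hg⟩ := hφe i j h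
  obtain ⟨c, hc, hne⟩ := hL.moves hLC hnt (x := g) (by rw [hg]; exact dbl_ne_one h)
    (by rw [hg, dbl_support h, card_quad h])
  rw [hg, ← Perm.mem_support, dbl_support h, mem_quad] at hne
  obtain ⟨b, rfl | rfl⟩ := hne
  · exact Or.inl (hC.pair hm hc false)
  · exact Or.inr (hC.pair hm hc false)

theorem Core.two_sets (hL : Core L) (hφe : HasPairs φ e) (hm : 3 ≤ m) {C C' : Set α}
    (hC : Closed e C) (hC' : Closed e C')
    (hLC : ∀ l ∈ L, ∀ c ∈ C, φ l c ∈ C) (hLC' : ∀ l ∈ L, ∀ c ∈ C', φ l c ∈ C')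
    (hnt : ∃ l ∈ L, ∃ c ∈ C, φ l c ≠ c) (hnt' : ∃ l ∈ L, ∃ c ∈ C', φ l c ≠ c)
    (hd : ∀ c ∈ C, c ∉ C') : False := by
  let i : Fin m := ⟨0, by omega⟩
  let j : Fin m := ⟨1, by omega⟩
  let k : Fin m := ⟨2, by omega⟩
  have hij : i ≠ j := by simp [i, j]
  have hik : i ≠ k := by simp [i, k]
  have hjk : j ≠ k := by simp [j, k]
  have h1 := hL.pair_mem hφe hm hC hLC hnt hij
  have h2 := hL.pair_mem hφe hm hC hLC hnt hik
  have h3 := hL.pair_mem hφe hm hC hLC hnt hjk
  have h4 := hL.pair_mem hφe hm hC' hLC' hnt' hij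
  have h5 := hL.pair_mem hφe hm hC' hLC' hnt' hik
  have h6 := hL.pair_mem hφe hm hC' hLC' hnt' hjk
  have d1 := hd (e (i, false))
  have d2 := hd (e (j, false))
  have d3 := hd (e (k, false))
  rcases h1 with a | a
  · rcases h4 with b | b
    · exact d1 a b
    · rcases h3 with c | c
      · exact d2 c b
      · rcases h5 with f | f
        · exact d1 a f
        · exact d3 c f
  · rcases h4 with b | b
    · rcases h2 with c | c
      · exact d1 c b
      · rcases h6 with f | f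
        · exact d2 a f
        · exact d3 c f
    · exact d2 a b

end CfsgLib.SymSylowTwo
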